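import Cfsg.Agent.H527.RC.Stmts
import Cfsg.Agent.Blocks.CentralProduct
import Cfsg.Agent.H638.FD.LieGen

/-!
# S4191, CCR (helper530): elements with centralizer of order prime to `p` from characters of defect zero

* `cc_of_dz` : a finite group with an irreducible character of `p`-defect zero has a `p`-regular element whose
  centralizer has order prime to `p`.  Elementary proof: otherwise `p ∣ |C(x)|` for all `x`, and since
  `|C(x)| ω(x) = (|G| / χ(1)) χ(x)`, all the values `χ(x)` are divisible by `p`; then
  `|G| / χ(1) = ∑ ω(x_K) χ(x_K⁻¹)` (over the classes) is divisible by `p`.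
* `cc_char` : simple groups of Lie type in characteristic `p` (the Steinberg character).
-/

set_option autoImplicit false

namespace Cfsg.Agent.H530.RC

open Cfsg Cfsg.Agent.H527.RC Cfsg.Agent.Blocks.CentralProduct Cfsg.Agent.Characters.Core
open scoped ComplexConjugate

universe u

theorem cc_of_dz {G : Type u} [Group G] [Finite G] {p : ℕ} (hp : p.Prime) {χ : G → ℂ} (hχ : IsIrrCharacter G χ)
    {n : ℕ} (hn : χ 1 = n) (hdz : ¬ p ∣ Nat.card G / n) : CC p G := by
  classical
  have := Fintype.ofFinite G
  by_contra hcon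
  have hall : ∀ x : G, p ∣ Nat.card (Subgroup.centralizer ({x} : Set G)) := by
    intro x
    by_contra h
    refine hcon ⟨x, fun h' => h (h'.trans ?_), h⟩
    have h2 : orderOf (⟨x, Subgroup.mem_centralizer_singleton_iff.2 rfl⟩ : Subgroup.centralizer ({x} : Set G)) =
      orderOf x := Subgroup.orderOf_mk _ _
    rw [← h2]
    exact orderOf_dvd_natCard _
  have hn0 : (n : ℂ) ≠ 0 := by
    obtain ⟨m, hm, h⟩ := isIrr_apply_one hχ
    rw [← hn, h]
    exact_mod_cast hm.ne'
  have hp0 : (p : ℂ) ≠ 0 := by exact_mod_cast hp.ne_zero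
  obtain ⟨m, hm⟩ := degree_dvd_card hχ hn
  have hn0' : n ≠ 0 := by exact_mod_cast hn0
  rw [hm, Nat.mul_div_cancel_left _ (Nat.pos_of_ne_zero hn0')] at hdz
  have hcop : IsCoprime (m : ℤ) (p : ℤ) := Nat.isCoprime_iff_coprime.2
    (((Nat.Prime.coprime_iff_not_dvd hp).2 hdz).symm)
  obtain ⟨u, v, huv⟩ := hcop
  have huv' : (u : ℂ) * m + v * p = 1 := by exact_mod_cast huv
  have h1 : ∀ x, IsIntegral ℤ (χ x / p) := by
    intro x
    obtain ⟨c, hc⟩ := hall x
    have h2 := (isIntegral_centralChar hχ x).mul (isIntegral_algebraMap (R := ℤ) (A := ℂ) (x := (c : ℤ)))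
    have h3 : centralChar χ x * ((algebraMap ℤ ℂ) (c : ℤ)) = m * χ x / p := by
      have h4 := Subgroup.card_mul_index (Subgroup.centralizer ({x} : Set G))
      rw [hc, hm] at h4
      have h5 : (p : ℂ) * c * ((Subgroup.centralizer ({x} : Set G)).index : ℂ) = n * m := by exact_mod_cast h4
      unfold centralChar
      rw [hn]
      simp only [algebraMap_int_eq, eq_intCast, Int.cast_natCast]
      field_simp
      linear_combination χ x * h5
    rw [h3] at h2
    have h6 : χ x / p = (algebraMap ℤ ℂ u) * (m * χ x / p) + (algebraMap ℤ ℂ v) * χ x := by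
      simp only [algebraMap_int_eq, eq_intCast]
      field_simp
      linear_combination -χ x * huv'
    rw [h6]
    exact (isIntegral_algebraMap.mul h2).add (isIntegral_algebraMap.mul (isIntegral_irr hχ x))
  have h7 := classInner_irr_self hχ
  unfold classInner at h7
  have hG : (Nat.card G : ℂ) ≠ 0 := by
    have : Nat.card G ≠ 0 := Nat.card_pos.ne'
    exact_mod_cast this
  have h8 : ∑ g : G, (χ g / p) * conj (χ g) / n = (m : ℂ) / p := by
    have h9 : ∑ g : G, χ g * conj (χ g) = (Nat.card G : ℂ) := by
      field_simp at h7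
      exact h7
    have h10 : (Nat.card G : ℂ) = n * m := by exact_mod_cast hm
    have h11 : ∑ g : G, (χ g / p) * conj (χ g) / n = (∑ g : G, χ g * conj (χ g)) / (p * n) := by
      rw [Finset.sum_div]
      refine Finset.sum_congr rfl fun g _ => ?_
      field_simp
    rw [h11, h9, h10]
    field_simp
  have h12 : ∑ g : G, (χ g / p) * conj (χ g) / n ∈ AlgInt.toSubring.toAddSubgroup := by
    refine sum_classFun_mem _ _ ?_ ?_
    · intro g h
      have := isIrr_isClassFunction hχ g h
      simp only [this]
    · intro g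
      have h13 : ((Subgroup.centralizer ({g} : Set G)).index : ℂ) * ((χ g / p) * conj (χ g) / n) =
          centralChar χ g * conj (χ g / p) := by
        unfold centralChar
        rw [hn, map_div₀, Complex.conj_natCast]
        ring
      rw [h13]
      exact (isIntegral_centralChar hχ g).mul (isIntegral_conj (h1 g))
  rw [h8] at h12
  exact hdz (Cfsg.Agent.Characters.DegreeBounds.nat_dvd_of_isIntegral_div hp.ne_zero h12)

/-- **CCR.** -/
theorem cc_char {S : Type u} [Group S] [Finite S] [IsSimpleGroup S] {p : ℕ} (hp : p.Prime)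
    (h : Cfsg.IsLieTypeChar p S) : CC p S := by
  have : Fact p.Prime := ⟨hp⟩
  obtain ⟨θ, hθ⟩ := H638.FD.LieGen.exists_st hp h
  obtain ⟨P⟩ : Nonempty (Sylow p S) := inferInstance
  refine cc_of_dz hp hθ.1 (n := Nat.card P) ((hθ.2.2 P).1) ?_
  rw [← Subgroup.card_mul_index (P : Subgroup S), Nat.mul_div_cancel_left _ Nat.card_pos]
  exact P.not_dvd_index

end Cfsg.Agent.H530.RC
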